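import Cfsg.Agent.H217.Odm.Eng
import Cfsg.Agent.H478.SporHe
import Cfsg.Agent.H394.HeSeventeen
import Cfsg.Agent.H19.Odd.HeEl7
import Cfsg.Agent.H729.PairBase
import Cfsg.Agent.NotCT.Orders
import Cfsg.Agent.KFacts.He.Cent

/-!
# TEAM ODDM (S4785): the Held group (helper463)
-/

set_option autoImplicit false

namespace Cfsg.Agent.H463.OdmHe

open Subgroup Cfsg Cfsg.Agent.OrdDiv Cfsg.Agent.H453.OddM Cfsg.Agent.H217.Odm Cfsg.Agent.H257.El

universe u v

/-- `RealP` is invariant under isomorphisms -/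
theorem realP_congr {T : Type u} {S : Type v} [Group T] [Group S] (e : T ≃* S) {k : ℕ} (h : RealP S k) : RealP T k := by
  obtain ⟨x, hx, hr⟩ := h
  exact ⟨e.symm x, by rw [MulEquiv.orderOf_eq, hx], hr.map e.symm.toMonoidHom⟩

theorem finite_he : Finite Spor.He := (SporadicB.HeUpper.card_he_le).1

theorem cent17 {x : Spor.He} (hx : orderOf x = 17) : Nat.card (centralizer ({x} : Set Spor.He)) = 17 := by
  have := finite_he
  have h1 := H394.HeSeventeen.card_le
  have hsq : ¬ 17 ^ 2 ∣ Nat.card Spor.He := by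
    rw [KFacts.He.Cent.card_He]
    norm_num
  rw [← H729.PairBase.card_cent_of_one (by norm_num) hsq H394.HeSeventeen.order_X hx] at h1
  have h3 : 17 ∣ Nat.card (centralizer ({x} : Set Spor.He)) := by
    rw [← hx]
    exact Subgroup.orderOf_dvd_natCard _ (mem_centralizer_singleton_iff.2 rfl)
  exact le_antisymm h1 (Nat.le_of_dvd Nat.card_pos h3)

theorem real17 : RealP Spor.He 17 := by
  have := finite_he
  have hx := H394.HeSeventeen.order_X
  refine ⟨_, hx, ?_⟩
  refine (norm_of_cent (n := 237081600) (c := 1) (e := 8) (by norm_num) ?_ (by norm_num) hx ?_ (by norm_num)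
    (by norm_num)).2 (by decide)
  · rw [KFacts.He.Cent.card_He]
  · rw [cent17 hx]

theorem real7 : RealP Spor.He 7 := by
  have hfin := finite_he
  have h7 : Fact (Nat.Prime 7) := ⟨by norm_num⟩
  exact ⟨_, orderOf_eq_prime H19.Odd.HeEl.C_pow H19.Odd.HeEl.C_ne, _, H19.Odd.HeEl.invC.2⟩

/-- **The row of `He`.** -/
theorem row (tab : OrderTable.{u}) (known : Known.{u}) {T : Type u} [Group T] (h : Spor.IsoHe T) : Row T := by
  have hc := NotCT.Orders.he h
  have : Finite T := Nat.finite_of_card_ne_zero (by rw [hc]; norm_num)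
  obtain ⟨e⟩ := h
  refine row_of_empty tab known (r := 17) (ss := [7]) (l := [(2, 10), (3, 3), (5, 2), (7, 3), (17, 1)]) hc
    (by norm_num) (realP_congr e real17) ?_ (by decide +kernel)
  intro s hs
  rw [List.mem_singleton] at hs
  subst hs
  exact ⟨by norm_num, realP_congr e real7,
    noOrd_congr e (noOrd_of_noComm (by norm_num) (by norm_num) fun x y hx hy => H478.SporHe.no119 hx hy)⟩

end Cfsg.Agent.H463.OdmHe
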